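import Mathlib
set_option linter.all false

-- part: H900/BinLin/Basic
section
/-!
# Binary linear groups

`H` acts faithfully and irreducibly on the finite elementary abelian `p`-group `V`, and any map
between finite tuples of `V` preserving the `H`-classes of the entries and of the differences is
induced by an element of `H`.
-/

set_option autoImplicit false

namespace Cfsg.Agent.H900.BinLin

section Defs

variable (H : Type*) {V : Type*} [Group H] [AddCommGroup V] [DistribMulAction H V]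

/-- `x` and `y` are in the same `H`-orbit. -/
def Cj (x y : V) : Prop := ∃ h : H, h • x = y

variable {H}

theorem Cj.refl (x : V) : Cj H x x := ⟨1, one_smul _ _⟩

theorem Cj.of_eq {x y : V} (h : x = y) : Cj H x y := h ▸ Cj.refl x

theorem Cj.symm {x y : V} (h : Cj H x y) : Cj H y x := by
  obtain ⟨g, rfl⟩ := h
  exact ⟨g⁻¹, inv_smul_smul _ _⟩

theorem Cj.trans {x y z : V} (h : Cj H x y) (h' : Cj H y z) : Cj H x z := by
  obtain ⟨g, rfl⟩ := h
  obtain ⟨g', rfl⟩ := h'
  exact ⟨g' * g, mul_smul _ _ _⟩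

theorem Cj.neg {x y : V} (h : Cj H x y) : Cj H (-x) (-y) := by
  obtain ⟨g, rfl⟩ := h
  exact ⟨g, smul_neg _ _⟩

theorem Cj.nsmul {x y : V} (n : ℕ) (h : Cj H x y) : Cj H (n • x) (n • y) := by
  obtain ⟨g, rfl⟩ := h
  exact ⟨g, (smul_comm _ _ _)⟩

theorem Cj.smul (g : H) (x : V) : Cj H x (g • x) := ⟨g, rfl⟩

theorem Cj.smul_smul {x y : V} (g : H) (h : Cj H x y) : Cj H (g • x) (g • y) :=
  ((Cj.smul g x).symm.trans h).trans (Cj.smul g y)

theorem Cj.sub_comm {x y x' y' : V} (h : Cj H (x - y) (x' - y')) : Cj H (y - x) (y' - x') := by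
  simpa using h.neg

theorem Cj.zero_iff {x : V} : Cj H x 0 ↔ x = 0 := by
  constructor
  · rintro ⟨g, hg⟩
    rwa [smul_eq_zero_iff_eq] at hg
  · rintro rfl; exact Cj.refl _

/-- the map `v ↦ g v - v` -/
def dl (g : H) : V →+ V := DistribSMul.toAddMonoidHom V g - AddMonoidHom.id V

@[simp] theorem dl_apply (g : H) (v : V) : dl g v = g • v - v := rfl

/-- fixed vectors of `g` -/
def U (V : Type*) [AddCommGroup V] [DistribMulAction H V] (g : H) : AddSubgroup V := (dl (V := V) g).ker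

/-- the image of `g - 1` -/
def Im (V : Type*) [AddCommGroup V] [DistribMulAction H V] (g : H) : AddSubgroup V := (dl (V := V) g).range

theorem mem_U {g : H} {v : V} : v ∈ U V g ↔ g • v = v := by
  rw [U, AddMonoidHom.mem_ker, dl_apply, sub_eq_zero]

theorem mem_Im {g : H} {w : V} : w ∈ Im V g ↔ ∃ v : V, g • v = v + w := by
  rw [Im, AddMonoidHom.mem_range]
  constructor
  · rintro ⟨v, hv⟩
    exact ⟨v, by rw [← hv, dl_apply]; abel⟩
  · rintro ⟨v, hv⟩
    exact ⟨v, by rw [dl_apply, hv]; abel⟩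

theorem sub_mem_Im (g : H) (v : V) : g • v - v ∈ Im V g := ⟨v, rfl⟩

theorem card_U_mul_card_Im [Finite V] (g : H) :
    Nat.card (U V g) * Nat.card (Im V g) = Nat.card V := by
  have h1 := (dl (V := V) g).ker.card_mul_index
  rw [AddSubgroup.index_ker] at h1
  exact h1

theorem conj_mem_U {g k : H} {v : V} : k • v ∈ U V (k * g * k⁻¹) ↔ v ∈ U V g := by
  rw [mem_U, mem_U, mul_smul, mul_smul, inv_smul_smul, smul_left_cancel_iff]

theorem mem_U_conj {g k : H} {v : V} : v ∈ U V (k * g * k⁻¹) ↔ k⁻¹ • v ∈ U V g := by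
  rw [← conj_mem_U (k := k) (v := k⁻¹ • v), smul_inv_smul]

theorem conj_mem_Im {g k : H} {v : V} (h : v ∈ Im V g) : k • v ∈ Im V (k * g * k⁻¹) := by
  rw [mem_Im] at h ⊢
  obtain ⟨x, hx⟩ := h
  refine ⟨k • x, ?_⟩
  rw [mul_smul, mul_smul, inv_smul_smul, hx, smul_add]

end Defs

/-- A binary irreducible linear group. -/
structure Bin (p : ℕ) (H V : Type*) [Group H] [AddCommGroup V] [DistribMulAction H V] : Prop where
  prime : p.Prime
  exp : ∀ v : V, p • v = 0
  faith : ∀ h : H, (∀ v : V, h • v = v) → h = 1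
  irr : ∀ M : AddSubgroup V, (∀ (h : H), ∀ m ∈ M, h • m ∈ M) → M = ⊥ ∨ M = ⊤
  bin : ∀ (n : ℕ) (I J : Fin n → V), (∀ i, Cj H (I i) (J i)) →
    (∀ i j, Cj H (I i - I j) (J i - J j)) → ∃ h : H, ∀ i, h • I i = J i

namespace Bin

variable {p : ℕ} {H V : Type*} [Group H] [AddCommGroup V] [DistribMulAction H V]

theorem bin' (hB : Bin p H V) {ι : Type*} [Finite ι] (I J : ι → V) (h1 : ∀ i, Cj H (I i) (J i))
    (h2 : ∀ i j, Cj H (I i - I j) (J i - J j)) : ∃ h : H, ∀ i, h • I i = J i := by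
  obtain ⟨n, ⟨e⟩⟩ := Finite.exists_equiv_fin ι
  obtain ⟨h, hh⟩ := hB.bin n (I ∘ e.symm) (J ∘ e.symm) (fun i => h1 _) (fun i j => h2 _ _)
  refine ⟨h, fun i => ?_⟩
  have := hh (e i)
  simpa using this

/-- two points -/
theorem bin_two (hB : Bin p H V) {x y x' y' : V} (h1 : Cj H x x') (h2 : Cj H y y')
    (h3 : Cj H (x - y) (x' - y')) : ∃ h : H, h • x = x' ∧ h • y = y' := by
  obtain ⟨h, hh⟩ := hB.bin' (ι := Bool) (fun b => if b then x else y)
    (fun b => if b then x' else y') (by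
      intro b; cases b
      · simpa using h2
      · simpa using h1) (by
      intro b c; cases b <;> cases c
      · simpa using Cj.refl _
      · simpa using h3.sub_comm
      · simpa using h3
      · simpa using Cj.refl _)
  exact ⟨h, by simpa using hh true, by simpa using hh false⟩

/-- a version with a function on a set -/
theorem bin_set [Finite V] (hB : Bin p H V) (S : Set V) (f : V → V) (h1 : ∀ x ∈ S, Cj H x (f x))
    (h2 : ∀ x ∈ S, ∀ y ∈ S, Cj H (x - y) (f x - f y)) : ∃ h : H, ∀ x ∈ S, h • x = f x := by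
  obtain ⟨h, hh⟩ := hB.bin' (ι := S) (fun x => (x : V)) (fun x => f x) (fun x => h1 x x.2)
    (fun x y => h2 x x.2 y y.2)
  exact ⟨h, fun x hx => hh ⟨x, hx⟩⟩

theorem swap (hB : Bin p H V) (v : V) (g : H) : ∃ h : H, h • v = g • v ∧ h • (g • v) = v := by
  obtain ⟨h, h1, h2⟩ := hB.bin_two (x := v) (y := -(g • v)) (x' := g • v) (y' := -v)
    (Cj.smul g v) (Cj.smul g v).symm.neg (Cj.of_eq (by abel))
  refine ⟨h, h1, ?_⟩
  rw [smul_neg] at h2
  exact neg_injective h2

theorem swap' (hB : Bin p H V) {x y : V} (h : Cj H x y) : ∃ h : H, h • x = y ∧ h • y = x := by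
  obtain ⟨g, rfl⟩ := h
  exact hB.swap x g

theorem sub_swap (hB : Bin p H V) {x y : V} (h : Cj H x y) : Cj H (x - y) (y - x) := by
  obtain ⟨k, h1, h2⟩ := hB.swap' h
  exact ⟨k, by rw [smul_sub, h1, h2]⟩

/-- `-1 ∈ H` unless `H` is trivial -/
theorem neg_mem [Finite H] (hB : Bin p H V) (hne : ∃ g : H, g ≠ 1) : ∃ z : H, ∀ v : V, z • v = -v := by
  obtain ⟨g, hg⟩ := hne
  have : ∃ v : V, g • v ≠ v := by
    by_contra hno
    push Not at hno
    exact hg (hB.faith g hno)
  obtain ⟨v, hv⟩ := this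
  obtain ⟨z, hz⟩ := hB.bin' (ι := H) (fun h => h • v - v) (fun h => v - h • v)
    (fun h => hB.sub_swap (Cj.smul h v).symm) (by
      intro h h'
      have h1 : Cj H (h • v) (h' • v) := (Cj.smul h v).symm.trans (Cj.smul h' v)
      have := hB.sub_swap h1
      convert this using 1 <;> abel)
  refine ⟨z, ?_⟩
  let M : AddSubgroup V := AddSubgroup.closure (Set.range fun h : H => h • v - v)
  have hM : M = ⊤ := by
    rcases hB.irr M (by
      intro h m hm
      induction hm using AddSubgroup.closure_induction with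
      | mem x hx =>
        obtain ⟨k, rfl⟩ := hx
        have : h • (k • v - v) = ((h * k) • v - v) - (h • v - v) := by
          rw [smul_sub, mul_smul]; abel
        change h • (k • v - v) ∈ M
        rw [this]
        exact M.sub_mem (AddSubgroup.subset_closure ⟨_, rfl⟩) (AddSubgroup.subset_closure ⟨_, rfl⟩)
      | zero => rw [smul_zero]; exact M.zero_mem
      | add x y _ _ hx hy => rw [smul_add]; exact M.add_mem hx hy
      | neg x _ hx => rw [smul_neg]; exact M.neg_mem hx) with h | h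
    · exfalso
      have : g • v - v ∈ M := AddSubgroup.subset_closure ⟨g, rfl⟩
      rw [h, AddSubgroup.mem_bot, sub_eq_zero] at this
      exact hv this
    · exact h
  intro x
  have hx : x ∈ M := by rw [hM]; trivial
  induction hx using AddSubgroup.closure_induction with
  | mem x hx =>
    obtain ⟨k, rfl⟩ := hx
    change z • (k • v - v) = -(k • v - v)
    rw [hz k]; abel
  | zero => simp
  | add x y _ _ hx hy => rw [smul_add, hx, hy]; abel
  | neg x _ hx => rw [smul_neg, hx]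

end Bin

/-- Binary irreducible linear groups with `-1`, on a finite space. -/
structure BinN (p : ℕ) (H V : Type*) [Group H] [AddCommGroup V] [DistribMulAction H V] : Prop
    extends Bin p H V where
  neg : ∃ z : H, ∀ v : V, z • v = -v

namespace BinN

variable {p : ℕ} {H V : Type*} [Group H] [AddCommGroup V] [DistribMulAction H V]

theorem cj_neg (hB : BinN p H V) (v : V) : Cj H v (-v) := by
  obtain ⟨z, hz⟩ := hB.neg
  exact ⟨z, hz v⟩

/-- the half of a vector, for odd `p` -/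
def hf (p : ℕ) (v : V) : V := ((p + 1) / 2) • v

theorem hf_add (hB : BinN p H V) (hp : p ≠ 2) (v : V) : hf p v + hf p v = v := by
  have hodd : p % 2 = 1 := hB.prime.eq_two_or_odd.resolve_left hp
  rw [hf, ← add_nsmul]
  have : (p + 1) / 2 + (p + 1) / 2 = p + 1 := by omega
  rw [this, succ_nsmul, hB.exp, zero_add]

theorem two_nsmul_eq_zero (hB : BinN p H V) (hp : p ≠ 2) {v : V} (h : v + v = 0) : v = 0 := by
  rw [← hB.hf_add hp v]
  have h1 : hf p v + hf p v = hf p (v + v) := by rw [hf, hf, nsmul_add]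
  rw [h1, h, hf, nsmul_zero]

theorem add_self_two (hB : BinN 2 H V) (v : V) : v + v = 0 := by
  rw [← two_nsmul]; exact hB.exp v

theorem neg_two (hB : BinN 2 H V) (v : V) : -v = v := by
  rw [neg_eq_iff_add_eq_zero]; exact hB.add_self_two v

variable [Finite V]

/-- the translation by `w` on the set of all `v` conjugate to `v + w` is induced by an element. -/
theorem exists_trans (hB : BinN p H V) (w : V) : ∃ t : H, ∀ v : V, Cj H v (v + w) → t • v = v + w := by
  obtain ⟨t, ht⟩ := hB.bin_set {v | Cj H v (v + w)} (fun v => v + w) (fun v hv => hv) (by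
    intro x _ y _
    exact Cj.of_eq (by abel))
  exact ⟨t, fun v hv => ht v hv⟩

/-- involution lifting -/
theorem exists_lift (hB : BinN p H V) [Finite H] (g : H) : ∃ t : H, t * t = 1 ∧
    ∀ c : V, g • g • c = c → t • c = g • c := by
  classical
  obtain ⟨t, ht, hmax⟩ := Set.exists_max_image
    {t : H | ∀ c : V, g • g • c = c → t • c = g • c} (fun t => Nat.card (U V (t * t)))
    (Set.toFinite _) ⟨g, fun c _ => rfl⟩
  refine ⟨t, ?_, ht⟩
  apply hB.faith
  by_contra hno
  push Not at hno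
  obtain ⟨z, hz⟩ := hno
  have hinv : ∀ c ∈ U V (t * t), t • c ∈ U V (t * t) := by
    intro c hc
    rw [mem_U] at hc ⊢
    rw [mul_smul] at hc ⊢
    rw [hc]
  obtain ⟨t', ht'⟩ := hB.bin' (ι := U V (t * t) ⊕ Bool)
    (Sum.elim (fun c => (c : V)) (fun b => if b then t • z else z))
    (Sum.elim (fun c => t • (c : V)) (fun b => if b then z else t • z)) (by
      rintro (c | b)
      · exact Cj.smul t _
      · cases b
        · simpa using Cj.smul t z
        · simpa using (Cj.smul t z).symm) (by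
      have hsw : Cj H (t • z - z) (z - t • z) := hB.sub_swap (Cj.smul t z).symm
      have h1 : ∀ c ∈ U V (t * t), Cj H (c - t • z) (t • c - z) := by
        intro c hc
        rw [mem_U, mul_smul] at hc
        have := Cj.smul t⁻¹ (c - t • z)
        convert this using 1
        rw [smul_sub, inv_smul_smul]
        congr 1
        rw [eq_inv_smul_iff, hc]
      have h2 : ∀ c : V, Cj H (c - z) (t • c - t • z) := by
        intro c
        have := Cj.smul t (c - z)
        rwa [smul_sub] at this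
      rintro (c | b) (c' | b')
      · have := Cj.smul t ((c : V) - c')
        rwa [smul_sub] at this
      · cases b'
        · simpa using h2 c
        · simpa using h1 c c.2
      · cases b
        · simpa using (h2 c').sub_comm
        · simpa using (h1 c' c'.2).sub_comm
      · cases b <;> cases b'
        · simpa using Cj.refl _
        · simpa using hsw.sub_comm
        · simpa using hsw
        · simpa using Cj.refl _)
  have e1 : ∀ c ∈ U V (t * t), t' • c = t • c := fun c hc => by simpa using ht' (Sum.inl ⟨c, hc⟩)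
  have e2 : t' • z = t • z := by simpa using ht' (Sum.inr false)
  have e3 : t' • t • z = z := by simpa using ht' (Sum.inr true)
  have hmem : t' ∈ {t : H | ∀ c : V, g • g • c = c → t • c = g • c} := by
    intro c hc
    have h1 : t • c = g • c := ht c hc
    have h2 : t • g • c = g • g • c := ht (g • c) (by rw [hc])
    rw [← h1]
    apply e1
    rw [mem_U, mul_smul, h1, h2, hc]
  have hle : U V (t * t) ≤ U V (t' * t') := by
    intro c hc
    rw [mem_U, mul_smul, e1 c hc, e1 _ (hinv c hc), ← mul_smul]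
    exact mem_U.mp hc
  have hlt : U V (t * t) < U V (t' * t') := by
    refine lt_of_le_of_ne hle fun heq => hz ?_
    have : z ∈ U V (t' * t') := by rw [mem_U, mul_smul, e2, e3]
    rw [← heq, mem_U] at this
    exact this
  have h3 := hmax t' hmem
  have h4 : Nat.card (U V (t * t)) < Nat.card (U V (t' * t')) := by
    have : Finite (U V (t' * t')) := inferInstance
    exact Set.Finite.card_lt_card (Set.toFinite _) hlt
  omega

/-- the involution attached to `w`. -/
theorem exists_inv (hB : BinN p H V) [Finite H] (w : V) :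
    ∃ t : H, t * t = 1 ∧ ∀ v : V, Cj H v (v + w) ↔ t • v = v + w := by
  obtain ⟨g, hg⟩ := hB.exists_trans w
  obtain ⟨t, ht, htg⟩ := hB.exists_lift g
  refine ⟨t, ht, fun v => ⟨fun hv => ?_, fun hv => ⟨t, hv⟩⟩⟩
  rw [htg v, hg v hv]
  rw [hg v hv]
  by_cases hp : p = 2
  · subst hp
    have h1 : v + w + w = v := by rw [add_assoc, hB.add_self_two, add_zero]
    have h2 := hg (v + w) (by rw [h1]; exact hv.symm)
    rw [h2, h1]
  · have h1 : Cj H (-hf p w) (-hf p w + w) := by
      have h2 : -hf p w + w = hf p w := by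
        nth_rewrite 2 [← hB.hf_add hp w]
        abel
      rw [h2]
      exact (hB.cj_neg _).symm
    have h2 := hg _ h1
    have h3 : -hf p w + w = hf p w := by
      nth_rewrite 2 [← hB.hf_add hp w]
      abel
    rw [h3, smul_neg] at h2
    have h4 : g • w = -w := by
      have h5 : g • hf p w = - hf p w := neg_eq_iff_eq_neg.mp h2
      have h6 := hB.hf_add hp w
      calc g • w = g • (hf p w + hf p w) := by rw [h6]
        _ = -(hf p w + hf p w) := by rw [smul_add, h5]; abel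
        _ = -w := by rw [h6]
    rw [smul_add, hg v hv, h4]
    abel

end BinN

end Cfsg.Agent.H900.BinLin
end

-- part: H900/BinLin/Refl
section
/-!
# The set `TT` of elements with maximal fixed space
-/

set_option autoImplicit false
set_option linter.unusedSectionVars false
set_option linter.unusedVariables false

namespace Cfsg.Agent.H900.BinLin

open BinN

/-- elements `≠ 1` with (inclusion-)maximal fixed space -/
def TT (H V : Type*) [Group H] [AddCommGroup V] [DistribMulAction H V] : Set H :=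
  {g | g ≠ 1 ∧ ∀ k : H, k ≠ 1 → U V g ≤ U V k → U V k ≤ U V g}

namespace BinN

variable {p : ℕ} {H V : Type*} [Group H] [AddCommGroup V] [DistribMulAction H V]
  [Finite V] [Finite H]

theorem exists_TT_ge (k : H) (hk : k ≠ 1) : ∃ g ∈ TT H V, U V k ≤ U V g := by
  obtain ⟨g, ⟨hg1, hg2⟩, hmax⟩ := Set.exists_max_image
    {g : H | g ≠ 1 ∧ U V k ≤ U V g} (fun t => Nat.card (U V t))
    (Set.toFinite _) ⟨k, hk, le_rfl⟩
  refine ⟨g, ⟨hg1, fun l hl hle => ?_⟩, hg2⟩
  by_contra hno
  have hlt : U V g < U V l := lt_of_le_not_ge hle hno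
  have h1 : Nat.card (U V g) < Nat.card (U V l) := Set.Finite.card_lt_card (Set.toFinite _) hlt
  have h2 := hmax l ⟨hl, hg2.trans hle⟩
  omega

theorem TT_conj {g : H} (hg : g ∈ TT H V) (k : H) : k * g * k⁻¹ ∈ TT H V := by
  refine ⟨fun h => hg.1 ?_, fun l hl hle => ?_⟩
  · have : g = k⁻¹ * (k * g * k⁻¹) * k := by group
    rw [this, h]; group
  · have h1 : U V g ≤ U V (k⁻¹ * l * k) := by
      intro v hv
      have := hle (conj_mem_U.mpr hv)
      have h2 : l = k * (k⁻¹ * l * k) * k⁻¹ := by group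
      rw [h2] at this
      exact conj_mem_U.mp this
    have h2 : k⁻¹ * l * k ≠ 1 := by
      intro h
      apply hl
      have : l = k * (k⁻¹ * l * k) * k⁻¹ := by group
      rw [this, h]; group
    have h3 := hg.2 _ h2 h1
    intro v hv
    rw [mem_U_conj]
    apply h3
    have h4 : l = k * (k⁻¹ * l * k) * k⁻¹ := by group
    rw [h4] at hv
    exact mem_U_conj.mp hv

/-- uniqueness of the element attached to `w`. -/
theorem TT_eq (hB : BinN p H V) {g : H} (hg : g ∈ TT H V) {w : V} (hw : w ≠ 0)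
    (hwg : w ∈ Im V g) {t : H} (ht : ∀ v : V, Cj H v (v + w) ↔ t • v = v + w) : g = t := by
  obtain ⟨x, hx⟩ := mem_Im.mp hwg
  have htx : t • x = x + w := (ht x).mp ⟨g, hx⟩
  have h1 : U V g ≤ U V t := by
    intro c hc
    rw [mem_U] at hc ⊢
    have h2 : g • (x + c) = (x + c) + w := by rw [smul_add, hx, hc]; abel
    have h3 := (ht (x + c)).mp ⟨g, h2⟩
    rw [smul_add, htx] at h3
    have h4 : x + w + t • c = x + w + c := by rw [h3]; abel
    exact add_left_cancel h4
  by_contra hne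
  have hne' : g⁻¹ * t ≠ 1 := by
    intro h
    apply hne
    have : t = g * (g⁻¹ * t) := by group
    rw [this, h, mul_one]
  have h5 : U V g ≤ U V (g⁻¹ * t) := by
    intro c hc
    rw [mem_U, mul_smul, mem_U.mp (h1 hc), inv_smul_eq_iff]
    exact (mem_U.mp hc).symm
  have h6 := hg.2 _ hne' h5
  have h7 : x ∈ U V (g⁻¹ * t) := by
    rw [mem_U, mul_smul, htx, inv_smul_eq_iff, hx]
  have h8 := mem_U.mp (h6 h7)
  rw [hx] at h8
  apply hw
  simpa using h8

theorem TT_iff (hB : BinN p H V) {g : H} (hg : g ∈ TT H V) {w : V} (hw : w ≠ 0)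
    (hwg : w ∈ Im V g) (v : V) : Cj H v (v + w) ↔ g • v = v + w := by
  obtain ⟨t, _, ht⟩ := hB.exists_inv w
  rw [hB.TT_eq hg hw hwg ht]
  exact ht v

theorem Im_ne_bot (hB : BinN p H V) {g : H} (hg : g ≠ 1) : ∃ w ∈ Im V g, w ≠ 0 := by
  by_contra hno
  push Not at hno
  apply hg
  apply hB.faith
  intro v
  have := hno _ (sub_mem_Im g v)
  rwa [sub_eq_zero] at this

theorem TT_sq (hB : BinN p H V) {g : H} (hg : g ∈ TT H V) : g * g = 1 := by
  obtain ⟨w, hwg, hw⟩ := hB.Im_ne_bot hg.1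
  obtain ⟨t, ht, ht'⟩ := hB.exists_inv w
  rw [hB.TT_eq hg hw hwg ht']
  exact ht

theorem smul_Im_of_sq {g : H} (h : g * g = 1) {w : V} (hw : w ∈ Im V g) : g • w = -w := by
  obtain ⟨x, hx⟩ := mem_Im.mp hw
  have h1 : g • g • x = x := by rw [← mul_smul, h, one_smul]
  rw [hx, smul_add, hx] at h1
  have h2 : x + (w + g • w) = x + 0 := by rw [add_zero]; rw [← add_assoc]; exact h1
  exact (neg_eq_of_add_eq_zero_right (add_left_cancel h2)).symm

theorem TT_smul_Im (hB : BinN p H V) {g : H} (hg : g ∈ TT H V) {w : V} (hw : w ∈ Im V g) :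
    g • w = -w := smul_Im_of_sq (hB.TT_sq hg) hw

theorem TT_inv (hB : BinN p H V) {g : H} (hg : g ∈ TT H V) : g⁻¹ = g :=
  inv_eq_of_mul_eq_one_left (hB.TT_sq hg)

theorem TT_unique (hB : BinN p H V) {g g' : H} (hg : g ∈ TT H V) (hg' : g' ∈ TT H V) {w : V}
    (hw : w ≠ 0) (hwg : w ∈ Im V g) (hwg' : w ∈ Im V g') : g = g' := by
  obtain ⟨t, _, ht⟩ := hB.exists_inv w
  rw [hB.TT_eq hg hw hwg ht, hB.TT_eq hg' hw hwg' ht]

theorem TT_disj (hB : BinN p H V) {g g' : H} (hg : g ∈ TT H V) (hg' : g' ∈ TT H V)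
    (hne : g ≠ g') {w : V} (hwg : w ∈ Im V g) (hwg' : w ∈ Im V g') : w = 0 := by
  by_contra hw
  exact hne (hB.TT_unique hg hg' hw hwg hwg')

theorem TT_comm_of_fix (hB : BinN p H V) {g k : H} (hg : g ∈ TT H V) {w : V}
    (hw : w ≠ 0) (hwg : w ∈ Im V g) (hk : k • w = w) : k * g = g * k := by
  have h1 : w ∈ Im V (k * g * k⁻¹) := by
    have := conj_mem_Im (k := k) hwg
    rwa [hk] at this
  have h2 := hB.TT_unique (TT_conj hg k) hg hw h1 hwg
  have h3 : k * g = (k * g * k⁻¹) * k := by group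
  rw [h3, h2]

theorem U_le_of (hB : BinN p H V) {g k : H} (hg : g ∈ TT H V) {w : V}
    (hw : w ≠ 0) (hwg : w ∈ Im V g) (hwk : w ∈ Im V k) : U V k ≤ U V g := by
  obtain ⟨x, hx⟩ := mem_Im.mp hwk
  have h0 := (hB.TT_iff hg hw hwg x).mp ⟨k, hx⟩
  intro c hc
  rw [mem_U] at hc ⊢
  have h2 : k • (x + c) = (x + c) + w := by rw [smul_add, hx, hc]; abel
  have h3 := (hB.TT_iff hg hw hwg (x + c)).mp ⟨k, h2⟩
  rw [smul_add, h0] at h3
  have h4 : x + w + g • c = x + w + c := by rw [h3]; abel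
  exact add_left_cancel h4

theorem TT_fix_of_comm (hB : BinN p H V) {s t : H} (hs : s ∈ TT H V) (ht : t ∈ TT H V)
    (hne : s ≠ t) (hc : s * t = t * s) {w : V} (hw : w ∈ Im V t) : s • w = w := by
  have h1 : s • w ∈ Im V t := by
    have := conj_mem_Im (k := s) hw
    rwa [hc, mul_inv_cancel_right] at this
  have h2 : s • w - w ∈ Im V t := (Im V t).sub_mem h1 hw
  have h3 := hB.TT_disj hs ht hne (sub_mem_Im s w) h2
  rwa [sub_eq_zero] at h3

theorem TT_norm (hB : BinN p H V) {t : H} (ht : t ∈ TT H V) {y : V} (hy : y ∈ Im V t) {h : H}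
    (hh : h • y ∈ Im V t) : h • y = y ∨ h • y = -y := by
  by_cases hw : h • y - y = 0
  · left; rwa [sub_eq_zero] at hw
  · right
    have h1 : h • y - y ∈ Im V t := (Im V t).sub_mem hh hy
    have h2 := (hB.TT_iff ht hw h1 y).mp ⟨h, by abel⟩
    rw [hB.TT_smul_Im ht hy] at h2
    rw [h2]; abel

theorem TT_comm_iff_fix (hB : BinN p H V) {s t : H} (hs : s ∈ TT H V) (ht : t ∈ TT H V)
    (hne : s ≠ t) {w : V} (hw0 : w ≠ 0) (hw : w ∈ Im V t) : s * t = t * s ↔ s • w = w :=
  ⟨fun hc => hB.TT_fix_of_comm hs ht hne hc hw, fun h => hB.TT_comm_of_fix ht hw0 hw h⟩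

theorem eq_zero_of_noncomm (hB : BinN p H V) {s t : H} (ht : t ∈ TT H V)
    (hst : s * t ≠ t * s) {w : V} (hw : w ∈ Im V t) (hs : s • w = w) : w = 0 := by
  by_contra h0
  exact hst (hB.TT_comm_of_fix ht h0 hw hs)

theorem card_Im_le_of_noncomm (hB : BinN p H V) {s t : H} (ht : t ∈ TT H V)
    (hst : s * t ≠ t * s) : Nat.card (Im V t) ≤ Nat.card (Im V s) := by
  refine Nat.card_le_card_of_injective
    (fun w : Im V t => (⟨s • (w : V) - (w : V), sub_mem_Im s (w : V)⟩ : Im V s)) ?_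
  intro a b hab
  have h1 : s • (a : V) - (a : V) = s • (b : V) - (b : V) := congrArg Subtype.val hab
  have h2 : s • ((a : V) - (b : V)) = (a : V) - (b : V) := by
    rw [smul_sub]
    have : s • (a : V) - s • (b : V) =
      (s • (a : V) - (a : V)) - (s • (b : V) - (b : V)) + ((a : V) - (b : V)) := by abel
    rw [this, h1, sub_self, zero_add]
  have h0 : (a : V) - (b : V) ∈ Im V t := (Im V t).sub_mem a.2 b.2
  have h3 := hB.eq_zero_of_noncomm ht hst h0 h2
  exact Subtype.ext (sub_eq_zero.mp h3)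

theorem card_Im_of_noncomm (hB : BinN p H V) {s t : H} (hs : s ∈ TT H V) (ht : t ∈ TT H V)
    (hst : s * t ≠ t * s) : Nat.card (Im V s) = Nat.card (Im V t) :=
  le_antisymm (hB.card_Im_le_of_noncomm hs (Ne.symm hst)) (hB.card_Im_le_of_noncomm ht hst)

/-- the map `(s - 1) : Im t → Im s` is onto for noncommuting `s, t`. -/
theorem exists_sub_of_noncomm (hB : BinN p H V) {s t : H} (hs : s ∈ TT H V) (ht : t ∈ TT H V)
    (hst : s * t ≠ t * s) {w : V} (hw : w ∈ Im V s) : ∃ x ∈ Im V t, s • x = x + w := by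
  have hinj : Function.Injective
      (fun w : Im V t => (⟨s • (w : V) - (w : V), sub_mem_Im s (w : V)⟩ : Im V s)) := by
    intro a b hab
    have h1 : s • (a : V) - (a : V) = s • (b : V) - (b : V) := congrArg Subtype.val hab
    have h2 : s • ((a : V) - (b : V)) = (a : V) - (b : V) := by
      rw [smul_sub]
      have : s • (a : V) - s • (b : V) =
        (s • (a : V) - (a : V)) - (s • (b : V) - (b : V)) + ((a : V) - (b : V)) := by abel
      rw [this, h1, sub_self, zero_add]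
    have h0 : (a : V) - (b : V) ∈ Im V t := (Im V t).sub_mem a.2 b.2
    have h3 := hB.eq_zero_of_noncomm ht hst h0 h2
    exact Subtype.ext (sub_eq_zero.mp h3)
  have hbij := (Nat.bijective_iff_injective_and_card _).mpr
    ⟨hinj, (hB.card_Im_of_noncomm hs ht hst).symm⟩
  obtain ⟨x, hx⟩ := hbij.2 ⟨w, hw⟩
  refine ⟨x, x.2, ?_⟩
  have h1 : s • (x : V) - (x : V) = w := congrArg Subtype.val hx
  rw [← h1]; abel

/-! ### Orthogonality, `p` odd -/

/-- the orthogonality relation (used for `p` odd) -/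
def Perp (H : Type*) {V : Type*} [Group H] [AddCommGroup V] [DistribMulAction H V] (u w : V) :
    Prop := Cj H (u + w) (u - w)

theorem perp_symm (hB : BinN p H V) {u w : V} (h : Perp H u w) : Perp H w u := by
  have h1 := h.trans (hB.cj_neg (u - w))
  unfold Perp
  convert h1 using 1 <;> abel

theorem exists_perp_inv (hB : BinN p H V) (hp : p ≠ 2) (w : V) :
    ∃ t : H, t * t = 1 ∧ (∀ v : V, Cj H v (v + w) ↔ t • v = v + w) ∧
      (∀ u : V, Perp H u w ↔ t • u = u) ∧ t • w = -w := by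
  obtain ⟨t, ht, htv⟩ := hB.exists_inv w
  have hw : t • w = -w := by
    have h1 : -hf p w + w = hf p w := by
      nth_rewrite 2 [← hB.hf_add hp w]
      abel
    have h2 := (htv (-hf p w)).mp (by rw [h1]; exact (hB.cj_neg _).symm)
    rw [h1, smul_neg] at h2
    have h5 : t • hf p w = - hf p w := neg_eq_iff_eq_neg.mp h2
    have h6 := hB.hf_add hp w
    calc t • w = t • (hf p w + hf p w) := by rw [h6]
      _ = -(hf p w + hf p w) := by rw [smul_add, h5]; abel
      _ = -w := by rw [h6]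
  refine ⟨t, ht, htv, fun u => ⟨fun h => ?_, fun h => ⟨t, ?_⟩⟩, hw⟩
  · have h1 : Cj H (hf p (u - w)) (hf p (u - w) + w) := by
      have h2 : hf p (u + w) = hf p (u - w) + w := by
        have h3 : hf p (w + w) = w := by
          have : hf p (w + w) = hf p w + hf p w := by rw [hf, hf, nsmul_add]
          rw [this, hB.hf_add hp]
        have h4 : u + w = (u - w) + (w + w) := by abel
        rw [h4]
        have h5 : hf p (u - w + (w + w)) = hf p (u - w) + hf p (w + w) := by
          rw [hf, hf, hf, nsmul_add]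
        rw [h5, h3]
      rw [← h2]
      exact (Cj.nsmul _ h).symm
    have h2 := (htv _).mp h1
    have h3 : t • (u - w) = u + w := by
      have h4 := hB.hf_add hp (u - w)
      calc t • (u - w) = t • (hf p (u - w) + hf p (u - w)) := by rw [h4]
        _ = (hf p (u - w) + hf p (u - w)) + (w + w) := by rw [smul_add, h2]; abel
        _ = u + w := by rw [h4]; abel
    rw [smul_sub, hw] at h3
    have h5 : t • u + w = u + w := by rw [← h3]; abel
    exact add_right_cancel h5
  · rw [smul_add, h, hw]; abel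

theorem perp_add (hB : BinN p H V) (hp : p ≠ 2) {u u' w : V} (h : Perp H u w) (h' : Perp H u' w) :
    Perp H (u + u') w := by
  obtain ⟨t, _, _, h1, _⟩ := hB.exists_perp_inv hp w
  rw [h1] at h h' ⊢
  rw [smul_add, h, h']

theorem perp_neg (hB : BinN p H V) (hp : p ≠ 2) {u w : V} (h : Perp H u w) :
    Perp H (-u) w := by
  obtain ⟨t, _, _, h1, _⟩ := hB.exists_perp_inv hp w
  rw [h1] at h ⊢
  rw [smul_neg, h]

theorem perp_self (hB : BinN p H V) (hp : p ≠ 2) {w : V} (h : Perp H w w) : w = 0 := by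
  unfold Perp at h
  rw [sub_self, Cj.zero_iff] at h
  exact hB.two_nsmul_eq_zero hp h

/-- if `g² = 1`, then `Im g ⊥ U g`. -/
theorem perp_of_fix_neg (hB : BinN p H V) {g : H} {a u : V} (ha : g • a = -a) (hu : g • u = u) :
    Perp H a u := by
  have h1 : Cj H (a + u) (-a + u) := ⟨g, by rw [smul_add, ha, hu]⟩
  have h2 := h1.trans (hB.cj_neg _)
  unfold Perp
  convert h2 using 1
  abel

end BinN

end Cfsg.Agent.H900.BinLin
end

-- part: H900/BinLin/Line
section
/-!
# Two noncommuting elements of `TT`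
-/

set_option autoImplicit false
set_option linter.unusedSectionVars false
set_option linter.unusedVariables false

namespace Cfsg.Agent.H900.BinLin

section Defs2

variable {H : Type*} (V : Type*) [Group H] [AddCommGroup V] [DistribMulAction H V]

/-- `C_V(s) ∩ C_V(t)` -/
def ZZ (s t : H) : AddSubgroup V := U V s ⊓ U V t

/-- `[V,s] + [V,t]` -/
def YY (s t : H) : AddSubgroup V := Im V s ⊔ Im V t

/-- the pointwise stabilizer of `ZZ s t` -/
def KK (s t : H) : Subgroup H where
  carrier := {g | ∀ z ∈ ZZ V s t, g • z = z}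
  one_mem' := fun z _ => one_smul _ _
  mul_mem' := by
    intro a b ha hb z hz
    rw [mul_smul, hb z hz, ha z hz]
  inv_mem' := by
    intro a ha z hz
    rw [inv_smul_eq_iff]
    exact (ha z hz).symm

variable {V}

theorem mem_KK {s t g : H} : g ∈ KK V s t ↔ ∀ z ∈ ZZ V s t, g • z = z := Iff.rfl

theorem mem_KK_iff_le {s t g : H} : g ∈ KK V s t ↔ ZZ V s t ≤ U V g := by
  rw [mem_KK]
  exact ⟨fun h z hz => mem_U.mpr (h z hz), fun h z hz => mem_U.mp (h hz)⟩

theorem left_mem_KK (s t : H) : s ∈ KK V s t := fun _ hz => mem_U.mp hz.1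

theorem right_mem_KK (s t : H) : t ∈ KK V s t := fun _ hz => mem_U.mp hz.2

theorem mem_YY {s t : H} {y : V} : y ∈ YY V s t ↔ ∃ a ∈ Im V s, ∃ b ∈ Im V t, a + b = y :=
  AddSubgroup.mem_sup

end Defs2

namespace BinN

variable {p : ℕ} {H V : Type*} [Group H] [AddCommGroup V] [DistribMulAction H V]
  [Finite V] [Finite H]

theorem TT_of_U_le {r k : H} (hr : r ∈ TT H V) (hk : k ≠ 1) (h : U V r ≤ U V k) :
    k ∈ TT H V ∧ U V k = U V r := by
  have h1 : U V k = U V r := le_antisymm (hr.2 k hk h) h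
  refine ⟨⟨hk, fun l hl hle => ?_⟩, h1⟩
  rw [h1] at hle ⊢
  exact hr.2 l hl hle

theorem add_mem_ZZ (hB : BinN p H V) {s t : H} (hs : s ∈ TT H V) (ht : t ∈ TT H V)
    (hst : s * t ≠ t * s) {a b : V} (ha : a ∈ Im V s) (hb : b ∈ Im V t)
    (h : a + b ∈ ZZ V s t) : a = 0 ∧ b = 0 := by
  have h1 : s • (a + b) = a + b := mem_U.mp h.1
  have h2 : t • (a + b) = a + b := mem_U.mp h.2
  by_cases hp : p = 2
  · subst hp
    rw [smul_add, hB.TT_smul_Im hs ha, hB.neg_two] at h1
    have h3 : b = 0 := hB.eq_zero_of_noncomm ht hst hb (add_left_cancel h1)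
    subst h3
    rw [add_zero] at h2
    exact ⟨hB.eq_zero_of_noncomm hs (Ne.symm hst) ha h2, rfl⟩
  · have p1 : Perp H a (a + b) := perp_of_fix_neg hB (hB.TT_smul_Im hs ha) h1
    have p2 : Perp H b (a + b) := perp_of_fix_neg hB (hB.TT_smul_Im ht hb) h2
    have h3 : a + b = 0 := hB.perp_self hp (hB.perp_add hp p1 p2)
    have h4 : a = -b := eq_neg_of_add_eq_zero_left h3
    have hne : s ≠ t := by rintro rfl; exact hst rfl
    have h5 : a = 0 := hB.TT_disj hs ht hne ha (by rw [h4]; exact (Im V t).neg_mem hb)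
    refine ⟨h5, ?_⟩
    rw [h5, zero_add] at h3
    exact h3

theorem card_V_le (hB : BinN p H V) {s t : H} (hs : s ∈ TT H V) (ht : t ∈ TT H V)
    (hst : s * t ≠ t * s) :
    Nat.card V ≤ Nat.card (Im V s) * (Nat.card (Im V t) * Nat.card (ZZ V s t)) := by
  have h1 := (ZZ V s t).card_mul_index
  have h2 : (ZZ V s t).index ≤ (U V s).index * (U V t).index := AddSubgroup.index_inf_le
  have h3 : ∀ g : H, (U V g).index = Nat.card (Im V g) := by
    intro g
    exact AddSubgroup.index_ker _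
  rw [h3, h3] at h2
  calc Nat.card V = Nat.card (ZZ V s t) * (ZZ V s t).index := h1.symm
    _ ≤ Nat.card (ZZ V s t) * (Nat.card (Im V s) * Nat.card (Im V t)) := Nat.mul_le_mul_left _ h2
    _ = _ := by ring

theorem decomp_bij (hB : BinN p H V) {s t : H} (hs : s ∈ TT H V) (ht : t ∈ TT H V)
    (hst : s * t ≠ t * s) : Function.Bijective
      (fun x : Im V s × Im V t × ZZ V s t => (x.1 : V) + (x.2.1 : V) + (x.2.2 : V)) := by
  have hinj : Function.Injective
      (fun x : Im V s × Im V t × ZZ V s t => (x.1 : V) + (x.2.1 : V) + (x.2.2 : V)) := by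
    rintro ⟨a, b, z⟩ ⟨a', b', z'⟩ h
    simp only at h
    have h1 : ((a : V) - (a' : V)) + ((b : V) - (b' : V)) = (z' : V) - (z : V) := by
      have : ((a : V) - (a' : V)) + ((b : V) - (b' : V)) =
        ((a : V) + (b : V) + (z : V)) - (a' : V) - (b' : V) - (z : V) := by abel
      rw [this, h]; abel
    have h2 := hB.add_mem_ZZ hs ht hst (a := (a : V) - (a' : V)) (b := (b : V) - (b' : V))
      ((Im V s).sub_mem a.2 a'.2)
      ((Im V t).sub_mem b.2 b'.2) (by rw [h1]; exact (ZZ V s t).sub_mem z'.2 z.2)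
    rw [h2.1, h2.2, add_zero] at h1
    have e1 : a = a' := Subtype.ext (sub_eq_zero.mp h2.1)
    have e2 : b = b' := Subtype.ext (sub_eq_zero.mp h2.2)
    have e3 : z = z' := (Subtype.ext (sub_eq_zero.mp h1.symm)).symm
    rw [e1, e2, e3]
  refine (Nat.bijective_iff_injective_and_card _).mpr ⟨hinj, ?_⟩
  apply le_antisymm
  · exact Nat.card_le_card_of_injective _ hinj
  · rw [Nat.card_prod, Nat.card_prod]
    exact hB.card_V_le hs ht hst

theorem card_V (hB : BinN p H V) {s t : H} (hs : s ∈ TT H V) (ht : t ∈ TT H V)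
    (hst : s * t ≠ t * s) :
    Nat.card V = Nat.card (Im V s) * Nat.card (Im V s) * Nat.card (ZZ V s t) := by
  have h := Nat.card_congr (Equiv.ofBijective _ (hB.decomp_bij hs ht hst))
  rw [Nat.card_prod, Nat.card_prod, ← hB.card_Im_of_noncomm hs ht hst] at h
  rw [← h, mul_assoc]

theorem exists_decomp (hB : BinN p H V) {s t : H} (hs : s ∈ TT H V) (ht : t ∈ TT H V)
    (hst : s * t ≠ t * s) (v : V) : ∃ y ∈ YY V s t, ∃ z ∈ ZZ V s t, v = y + z := by
  obtain ⟨⟨a, b, z⟩, h⟩ := (hB.decomp_bij hs ht hst).2 v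
  exact ⟨(a : V) + (b : V), mem_YY.mpr ⟨a, a.2, b, b.2, rfl⟩, z, z.2, h.symm⟩

theorem YY_inf_ZZ (hB : BinN p H V) {s t : H} (hs : s ∈ TT H V) (ht : t ∈ TT H V)
    (hst : s * t ≠ t * s) {v : V} (hy : v ∈ YY V s t) (hz : v ∈ ZZ V s t) : v = 0 := by
  obtain ⟨a, ha, b, hb, rfl⟩ := mem_YY.mp hy
  obtain ⟨h1, h2⟩ := hB.add_mem_ZZ hs ht hst ha hb hz
  rw [h1, h2, add_zero]

theorem card_YY (hB : BinN p H V) {s t : H} (hs : s ∈ TT H V) (ht : t ∈ TT H V)
    (hst : s * t ≠ t * s) :
    Nat.card (YY V s t) = Nat.card (Im V s) * Nat.card (Im V s) := by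
  have hbij : Function.Bijective
      (fun x : Im V s × Im V t => (⟨(x.1 : V) + (x.2 : V), mem_YY.mpr ⟨_, x.1.2, _, x.2.2, rfl⟩⟩ :
        YY V s t)) := by
    constructor
    · rintro ⟨a, b⟩ ⟨a', b'⟩ h
      have h' : (a : V) + (b : V) = (a' : V) + (b' : V) := congrArg Subtype.val h
      have h2 := (hB.decomp_bij hs ht hst).1 (a₁ := (a, b, 0)) (a₂ := (a', b', 0)) (by
        simp only; rw [h'])
      simp only [Prod.mk.injEq] at h2
      rw [h2.1, h2.2.1]
    · rintro ⟨y, hy⟩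
      obtain ⟨a, ha, b, hb, rfl⟩ := mem_YY.mp hy
      exact ⟨(⟨a, ha⟩, ⟨b, hb⟩), rfl⟩
  rw [← Nat.card_congr (Equiv.ofBijective _ hbij), Nat.card_prod,
    ← hB.card_Im_of_noncomm hs ht hst]

/-- `r ∈ TT ∩ K` does not commute with both `s` and `t`. -/
theorem not_comm_both (hB : BinN p H V) {s t : H} (hs : s ∈ TT H V) (ht : t ∈ TT H V)
    (hst : s * t ≠ t * s) {r : H} (hr : r ∈ TT H V) (hrK : r ∈ KK V s t)
    (h1 : r * s = s * r) (h2 : r * t = t * r) : False := by
  have hrs : r ≠ s := by rintro rfl; exact hst h2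
  have hrt : r ≠ t := by rintro rfl; exact hst h1.symm
  apply hr.1
  apply hB.faith
  intro v
  obtain ⟨y, hy, z, hz, rfl⟩ := hB.exists_decomp hs ht hst v
  obtain ⟨a, ha, b, hb, rfl⟩ := mem_YY.mp hy
  rw [smul_add, smul_add, hB.TT_fix_of_comm hr hs hrs h1 ha, hB.TT_fix_of_comm hr ht hrt h2 hb,
    hrK z hz]

theorem card_Im_K (hB : BinN p H V) {s t : H} (hs : s ∈ TT H V) (ht : t ∈ TT H V)
    (hst : s * t ≠ t * s) {r : H} (hr : r ∈ TT H V) (hrK : r ∈ KK V s t) :
    Nat.card (Im V r) = Nat.card (Im V s) := by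
  by_cases h1 : r * s = s * r
  · by_cases h2 : r * t = t * r
    · exact (hB.not_comm_both hs ht hst hr hrK h1 h2).elim
    · rw [hB.card_Im_of_noncomm hr ht h2, ← hB.card_Im_of_noncomm hs ht hst]
  · exact hB.card_Im_of_noncomm hr hs h1

theorem Im_inf_ZZ (hB : BinN p H V) {s t : H} (hs : s ∈ TT H V) (ht : t ∈ TT H V)
    (hst : s * t ≠ t * s) {r : H} (hr : r ∈ TT H V) (hrK : r ∈ KK V s t) {a : V}
    (ha : a ∈ Im V r) (haZ : a ∈ ZZ V s t) : a = 0 := by
  by_contra h0
  have h1 := hB.TT_comm_of_fix hr h0 ha (mem_U.mp haZ.1)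
  have h2 := hB.TT_comm_of_fix hr h0 ha (mem_U.mp haZ.2)
  exact hB.not_comm_both hs ht hst hr hrK h1.symm h2.symm

theorem one_lt_card_Im (hB : BinN p H V) {g : H} (hg : g ≠ 1) : 1 < Nat.card (Im V g) := by
  obtain ⟨w, hw, h0⟩ := hB.Im_ne_bot hg
  rw [Finite.one_lt_card_iff_nontrivial]
  exact ⟨⟨w, hw⟩, 0, fun h => h0 (congrArg Subtype.val h)⟩

theorem card_U_K (hB : BinN p H V) {s t : H} (hs : s ∈ TT H V) (ht : t ∈ TT H V)
    (hst : s * t ≠ t * s) {r : H} (hr : r ∈ TT H V) (hrK : r ∈ KK V s t) :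
    Nat.card (U V r) = Nat.card (Im V s) * Nat.card (ZZ V s t) := by
  have h1 := card_U_mul_card_Im (V := V) r
  rw [hB.card_Im_K hs ht hst hr hrK, hB.card_V hs ht hst] at h1
  have hpos : 0 < Nat.card (Im V s) := Nat.card_pos
  have h2 : Nat.card (U V r) * Nat.card (Im V s) =
      (Nat.card (Im V s) * Nat.card (ZZ V s t)) * Nat.card (Im V s) := by rw [h1]; ring
  exact Nat.eq_of_mul_eq_mul_right hpos h2

/-- For noncommuting `r, r' ∈ TT ∩ K`, `U r ∩ U r' = Z`. -/
theorem U_inf_of_noncomm (hB : BinN p H V) {s t : H} (hs : s ∈ TT H V) (ht : t ∈ TT H V)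
    (hst : s * t ≠ t * s) {r r' : H} (hr : r ∈ TT H V) (hrK : r ∈ KK V s t)
    (hr' : r' ∈ TT H V) (hrK' : r' ∈ KK V s t) (h : r * r' ≠ r' * r) :
    U V r ⊓ U V r' = ZZ V s t := by
  have h1 : ZZ V s t ≤ ZZ V r r' :=
    le_inf (mem_KK_iff_le.mp hrK) (mem_KK_iff_le.mp hrK')
  have h2 := hB.card_V hr hr' h
  rw [hB.card_Im_K hs ht hst hr hrK, hB.card_V hs ht hst] at h2
  have hpos : 0 < Nat.card (Im V s) * Nat.card (Im V s) :=
    Nat.mul_pos Nat.card_pos Nat.card_pos
  have h3 := Nat.eq_of_mul_eq_mul_left hpos h2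
  have h4 : ZZ V s t = ZZ V r r' := by
    apply SetLike.coe_injective
    exact Set.eq_of_subset_of_ncard_le h1 (by
      rw [← Nat.card_coe_set_eq, ← Nat.card_coe_set_eq]; exact h3.symm.le) (Set.toFinite _)
  exact h4.symm

end BinN

end Cfsg.Agent.H900.BinLin
end

-- part: H900/BinLin/Cover
section
/-!
# The group `K = C_H(Z)`: uniform part
-/

set_option autoImplicit false
set_option linter.unusedSectionVars false
set_option linter.unusedVariables false

namespace Cfsg.Agent.H900.BinLin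

/-- the property (B) of a noncommuting pair `s, t`. -/
def PropB {H : Type*} (V : Type*) [Group H] [AddCommGroup V] [DistribMulAction H V]
    (s t : H) : Prop :=
  ∀ g ∈ KK V s t, ∀ w ∈ Im V g, w ≠ 0 → ∃ τ ∈ KK V s t, τ * τ = 1 ∧
    (τ ∈ TT H V ∨ U V τ ≤ ZZ V s t) ∧ ∀ v : V, Cj H v (v + w) → τ • v = v + w

/-- uniqueness of the element of `TT ∩ K` fixing a vector outside `Z` -/
def PropU {H : Type*} (V : Type*) [Group H] [AddCommGroup V] [DistribMulAction H V]
    (s t : H) : Prop :=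
  ∀ r ∈ TT H V, r ∈ KK V s t → ∀ r' ∈ TT H V, r' ∈ KK V s t → ∀ x : V, x ∉ ZZ V s t →
    r • x = x → r' • x = x → r = r'

/-- the `K`-class of a vector outside `Z` is swept by `TT ∩ K` -/
def PropC {H : Type*} (V : Type*) [Group H] [AddCommGroup V] [DistribMulAction H V]
    (s t : H) : Prop :=
  ∀ k ∈ KK V s t, ∀ x : V, x ∉ ZZ V s t → ∃ r ∈ TT H V, r ∈ KK V s t ∧ r • x = k • x

theorem card_of_unique {X R : Type*} [Finite X] [Finite R] (P : R → X → Prop)
    (h1 : ∀ x, ∃! r, P r x) (c : ℕ) (h2 : ∀ r, Nat.card {x // P r x} = c) :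
    Nat.card X = Nat.card R * c := by
  classical
  choose f hf using h1
  have : Fintype R := Fintype.ofFinite R
  rw [← Nat.card_congr (Equiv.sigmaFiberEquiv f), Nat.card_sigma]
  have h3 : ∀ r : R, Nat.card {x // f x = r} = c := by
    intro r
    rw [← h2 r]
    refine Nat.card_congr (Equiv.subtypeEquivRight fun x => ?_)
    constructor
    · rintro rfl; exact (hf x).1
    · intro h; exact ((hf x).2 r h).symm
  rw [Finset.sum_congr rfl (fun r _ => h3 r), Finset.sum_const, Nat.card_eq_fintype_card,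
    Finset.card_univ, smul_eq_mul]

namespace BinN

variable {p : ℕ} {H V : Type*} [Group H] [AddCommGroup V] [DistribMulAction H V]
  [Finite V] [Finite H]

theorem U_le_of_trans {g τ : H} {w : V} (hw : w ∈ Im V g)
    (h : ∀ v : V, Cj H v (v + w) → τ • v = v + w) : U V g ≤ U V τ := by
  obtain ⟨x, hx⟩ := mem_Im.mp hw
  have h0 := h x ⟨g, hx⟩
  intro c hc
  rw [mem_U] at hc ⊢
  have h2 : g • (x + c) = (x + c) + w := by rw [smul_add, hx, hc]; abel
  have h3 := h (x + c) ⟨g, h2⟩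
  rw [smul_add, h0] at h3
  have h4 : x + w + τ • c = x + w + c := by rw [h3]; abel
  exact add_left_cancel h4

theorem exists_fix_of_B (hB : BinN p H V) {s t : H} (hs : s ∈ TT H V) (ht : t ∈ TT H V)
    (hst : s * t ≠ t * s) (hPB : PropB V s t) {x : V} (hx : x ∉ ZZ V s t) :
    ∃ r ∈ TT H V, r ∈ KK V s t ∧ r • x = x := by
  by_contra hno
  push Not at hno
  -- every element of `K` fixing `x` is trivial
  have h1 : ∀ g ∈ KK V s t, g • x = x → g = 1 := by
    intro g hg hgx
    by_contra hg1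
    obtain ⟨w, hw, hw0⟩ := hB.Im_ne_bot hg1
    obtain ⟨τ, hτK, hτ, hor, htr⟩ := hPB g hg w hw hw0
    have hle := U_le_of_trans hw htr
    have hxτ : x ∈ U V τ := hle (mem_U.mpr hgx)
    rcases hor with h | h
    · exact hno τ h hτK (mem_U.mp hxτ)
    · exact hx (h hxτ)
  have h2 : ∀ g ∈ KK V s t, g * g = 1 := by
    intro g hg
    by_cases hg1 : g = 1
    · rw [hg1, one_mul]
    have hgx : g • x - x ≠ 0 := fun h => hg1 (h1 g hg (sub_eq_zero.mp h))
    obtain ⟨τ, hτK, hτ, hor, htr⟩ := hPB g hg _ (sub_mem_Im g x) hgx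
    have h3 : τ • x = g • x := by
      have := htr x ⟨g, by abel⟩
      rw [this]; abel
    have h4 : g⁻¹ * τ = 1 := by
      apply h1 _ ((KK V s t).mul_mem ((KK V s t).inv_mem hg) hτK)
      rw [mul_smul, h3, inv_smul_smul]
    have h5 : τ = g := by
      have : τ = g * (g⁻¹ * τ) := by group
      rw [this, h4, mul_one]
    rwa [h5] at hτ
  apply hst
  have hs2 := h2 s (left_mem_KK s t)
  have ht2 := h2 t (right_mem_KK s t)
  have hst2 := h2 (s * t) ((KK V s t).mul_mem (left_mem_KK s t) (right_mem_KK s t))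
  have e1 : s⁻¹ = s := inv_eq_of_mul_eq_one_left hs2
  have e2 : t⁻¹ = t := inv_eq_of_mul_eq_one_left ht2
  have e3 : (s * t)⁻¹ = s * t := inv_eq_of_mul_eq_one_left hst2
  rw [← e3, mul_inv_rev, e1, e2]

theorem stab_of_B (hB : BinN p H V) {s t : H} (hs : s ∈ TT H V) (ht : t ∈ TT H V)
    (hst : s * t ≠ t * s) (hPB : PropB V s t) (hPU : PropU V s t) {r : H} (hr : r ∈ TT H V)
    (hrK : r ∈ KK V s t) {x : V} (hx : x ∉ ZZ V s t) (hrx : r • x = x) {k : H}
    (hk : k ∈ KK V s t) (hkx : k • x = x) : k = 1 ∨ k = r := by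
  have h1 : ∀ v : V, k • v = v ∨ k • v = r • v := by
    intro v
    by_cases hv : k • v = v
    · exact Or.inl hv
    · right
      have hw0 : k • v - v ≠ 0 := fun h => hv (sub_eq_zero.mp h)
      obtain ⟨τ, hτK, hτ, hor, htr⟩ := hPB k hk _ (sub_mem_Im k v) hw0
      have hle := U_le_of_trans (sub_mem_Im k v) htr
      have hxτ : x ∈ U V τ := hle (mem_U.mpr hkx)
      have h3 : τ • v = k • v := by
        have := htr v ⟨k, by abel⟩
        rw [this]; abel
      rcases hor with h | h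
      · rw [hPU τ h hτK r hr hrK x hx (mem_U.mp hxτ) hrx] at h3
        exact h3.symm
      · exact absurd (h hxτ) hx
  by_contra hno
  push Not at hno
  obtain ⟨v1, hv1⟩ : ∃ v : V, k • v ≠ v := by
    by_contra h
    push Not at h
    exact hno.1 (hB.faith k h)
  obtain ⟨v2, hv2⟩ : ∃ v : V, k • v ≠ r • v := by
    by_contra h
    push Not at h
    apply hno.2
    have : r⁻¹ * k = 1 := by
      apply hB.faith
      intro v
      rw [mul_smul, h v, inv_smul_smul]
    calc k = r * (r⁻¹ * k) := by group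
      _ = r := by rw [this, mul_one]
  have a1 : k • v1 = r • v1 := (h1 v1).resolve_left hv1
  have a2 : k • v2 = v2 := (h1 v2).resolve_right hv2
  rcases h1 (v1 + v2) with h | h
  · rw [smul_add, a2] at h
    exact hv1 (add_right_cancel h)
  · rw [smul_add, smul_add, a1] at h
    exact hv2 (add_left_cancel h)

/-- the data obtained for a noncommuting pair -/
structure Good (V : Type*) {H : Type*} [Group H] [AddCommGroup V] [DistribMulAction H V]
    (s t : H) : Prop where
  hU : PropU V s t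
  hC : PropC V s t
  hS : ∀ r ∈ TT H V, r ∈ KK V s t → ∀ x : V, x ∉ ZZ V s t → r • x = x → ∀ k ∈ KK V s t,
    k • x = x → k = 1 ∨ k = r

theorem TT_inj (hB : BinN p H V) {s t : H} (hG : Good V s t) {r r' : H} (hr : r ∈ TT H V)
    (hrK : r ∈ KK V s t) (hr' : r' ∈ TT H V) (hrK' : r' ∈ KK V s t) {x : V}
    (hx : x ∉ ZZ V s t) (h : r • x = r' • x) : r = r' := by
  by_cases h0 : r • x = x
  · exact hG.hU r hr hrK r' hr' hrK' x hx h0 (h ▸ h0)
  · refine hB.TT_unique hr hr' (w := r • x - x) (fun h1 => h0 (sub_eq_zero.mp h1))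
      (sub_mem_Im r x) ?_
    rw [h]
    exact sub_mem_Im r' x

theorem exists_not_mem_ZZ (hB : BinN p H V) {s t : H} (hs : s ∈ TT H V) (ht : t ∈ TT H V)
    (hst : s * t ≠ t * s) {r : H} (hr : r ∈ TT H V) (hrK : r ∈ KK V s t) :
    ∃ x ∈ U V r, x ∉ ZZ V s t := by
  by_contra hno
  push Not at hno
  have h1 : Nat.card (U V r) ≤ Nat.card (ZZ V s t) := Nat.card_mono (Set.toFinite _) hno
  rw [hB.card_U_K hs ht hst hr hrK] at h1
  have h2 := hB.one_lt_card_Im hs.1
  have h3 : 0 < Nat.card (ZZ V s t) := Nat.card_pos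
  nlinarith

theorem TT_inv_mem (hB : BinN p H V) {g : H} (hg : g⁻¹ ∈ TT H V) : g ∈ TT H V := by
  have := hB.TT_inv hg
  rw [inv_inv] at this
  rwa [this]

/-- the rotations -/
def KP (hB : BinN p H V) {s t : H} (hs : s ∈ TT H V) (ht : t ∈ TT H V)
    (hst : s * t ≠ t * s) (hG : Good V s t) : Subgroup H where
  carrier := {k | k ∈ KK V s t ∧ k ∉ TT H V}
  one_mem' := ⟨(KK V s t).one_mem, fun h => h.1 rfl⟩
  inv_mem' := by
    rintro a ⟨ha, ha'⟩
    exact ⟨(KK V s t).inv_mem ha, fun h => ha' (hB.TT_inv_mem h)⟩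
  mul_mem' := by
    rintro a b ⟨ha, ha'⟩ ⟨hb, hb'⟩
    refine ⟨(KK V s t).mul_mem ha hb, fun hab => ?_⟩
    have habK : a * b ∈ KK V s t := (KK V s t).mul_mem ha hb
    obtain ⟨x, hxU, hxZ⟩ := hB.exists_not_mem_ZZ hs ht hst hab habK
    have hx1 : (a * b) • x = x := mem_U.mp hxU
    obtain ⟨r, hr, hrK, hrx⟩ := hG.hC b hb x hxZ
    have h1 : b • x = a⁻¹ • x := by
      rw [eq_inv_smul_iff, ← mul_smul, hx1]
    -- `b⁻¹ r` fixes `x`
    have key : ∀ c ∈ KK V s t, c ∉ TT H V → c • x = r • x → c = r * (a * b) := by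
      intro c hc hc' hcx
      have h2 : (r⁻¹ * c) • x = x := by rw [mul_smul, hcx, inv_smul_smul]
      rcases hG.hS (a * b) hab habK x hxZ hx1 (r⁻¹ * c)
        ((KK V s t).mul_mem ((KK V s t).inv_mem hrK) hc) h2 with h3 | h3
      · exfalso
        have : c = r := by
          calc c = r * (r⁻¹ * c) := by group
            _ = r := by rw [h3, mul_one]
        exact hc' (this ▸ hr)
      · rw [← h3]; group
    have e1 := key b hb hb' hrx.symm
    have e2 := key a⁻¹ ((KK V s t).inv_mem ha) (fun h => ha' (hB.TT_inv_mem h))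
      (by rw [← h1, hrx])
    have e3 : b = a⁻¹ := by rw [e1, ← e2]
    apply hab.1
    rw [e3, mul_inv_cancel]

theorem mem_KP (hB : BinN p H V) {s t : H} (hs : s ∈ TT H V) (ht : t ∈ TT H V)
    (hst : s * t ≠ t * s) (hG : Good V s t) {k : H} :
    k ∈ hB.KP hs ht hst hG ↔ k ∈ KK V s t ∧ k ∉ TT H V := Iff.rfl

/-- `KP` is semiregular outside `Z`. -/
theorem KP_semireg (hB : BinN p H V) {s t : H} (hs : s ∈ TT H V) (ht : t ∈ TT H V)
    (hst : s * t ≠ t * s) (hG : Good V s t) {k : H} (hk : k ∈ hB.KP hs ht hst hG)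
    {x : V} (hx : x ∉ ZZ V s t) (hkx : k • x = x) : k = 1 := by
  obtain ⟨r, hr, hrK, hrx⟩ := hG.hC 1 (KK V s t).one_mem x hx
  rw [one_smul] at hrx
  rcases hG.hS r hr hrK x hx hrx k hk.1 hkx with h | h
  · exact h
  · exact absurd (h ▸ hr) hk.2

theorem mul_KP (hB : BinN p H V) {s t : H} (hs : s ∈ TT H V) (ht : t ∈ TT H V)
    (hst : s * t ≠ t * s) (hG : Good V s t) {r k : H} (hr : r ∈ TT H V) (hrK : r ∈ KK V s t)
    (hk : k ∈ hB.KP hs ht hst hG) : r * k ∈ TT H V ∧ r * k ∈ KK V s t := by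
  have h1 : r * k ∈ KK V s t := (KK V s t).mul_mem hrK hk.1
  refine ⟨?_, h1⟩
  by_contra hno
  have h2 : r * k ∈ hB.KP hs ht hst hG := ⟨h1, hno⟩
  have h3 := (hB.KP hs ht hst hG).mul_mem h2 ((hB.KP hs ht hst hG).inv_mem hk)
  rw [mul_inv_cancel_right] at h3
  exact h3.2 hr

/-- the number of elements of `TT ∩ K`. -/
theorem card_TTK (hB : BinN p H V) {s t : H} (hs : s ∈ TT H V) (ht : t ∈ TT H V)
    (hst : s * t ≠ t * s) (hG : Good V s t) :
    Nat.card {r : H // r ∈ TT H V ∧ r ∈ KK V s t} = Nat.card (Im V s) + 1 := by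
  set q := Nat.card (Im V s) with hq
  set m := Nat.card (ZZ V s t) with hm
  have hq1 : 1 < q := hB.one_lt_card_Im hs.1
  have hm0 : 0 < m := Nat.card_pos
  have h1 := card_of_unique (X := {x : V // x ∉ ZZ V s t})
    (R := {r : H // r ∈ TT H V ∧ r ∈ KK V s t}) (fun r x => r.1 • x.1 = x.1) (by
      rintro ⟨x, hx⟩
      obtain ⟨r, hr, hrK, hrx⟩ := hG.hC 1 (KK V s t).one_mem x hx
      rw [one_smul] at hrx
      exact ⟨⟨r, hr, hrK⟩, hrx, fun r' hr' =>
        Subtype.ext (hG.hU r'.1 r'.2.1 r'.2.2 r hr hrK x hx hr' hrx)⟩) (q * m - m) (by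
      rintro ⟨r, hr, hrK⟩
      have e : {x : {x : V // x ∉ ZZ V s t} // r • x.1 = x.1} ≃
          {x : V // x ∈ (U V r : Set V) \ (ZZ V s t : Set V)} :=
        { toFun := fun x => ⟨x.1.1, mem_U.mpr x.2, x.1.2⟩
          invFun := fun x => ⟨⟨x.1, x.2.2⟩, mem_U.mp x.2.1⟩
          left_inv := fun x => rfl
          right_inv := fun x => rfl }
      rw [Nat.card_congr e]
      change Nat.card ↥((U V r : Set V) \ (ZZ V s t : Set V)) = _
      rw [Nat.card_coe_set_eq, Set.ncard_sdiff (mem_KK_iff_le.mp hrK) (Set.toFinite _),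
        ← Nat.card_coe_set_eq, ← Nat.card_coe_set_eq]
      have := hB.card_U_K hs ht hst hr hrK
      rw [← hq, ← hm] at this
      change Nat.card (U V r) - Nat.card (ZZ V s t) = _
      rw [this])
  have h2 : Nat.card {x : V // x ∉ ZZ V s t} = q * q * m - m := by
    have e : {x : V // x ∉ ZZ V s t} ≃ {x : V // x ∈ (Set.univ : Set V) \ (ZZ V s t : Set V)} :=
      { toFun := fun x => ⟨x.1, trivial, x.2⟩
        invFun := fun x => ⟨x.1, x.2.2⟩
        left_inv := fun x => rfl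
        right_inv := fun x => rfl }
    rw [Nat.card_congr e]
    change Nat.card ↥((Set.univ : Set V) \ (ZZ V s t : Set V)) = _
    rw [Nat.card_coe_set_eq, Set.ncard_sdiff (Set.subset_univ _) (Set.toFinite _), Set.ncard_univ,
      ← Nat.card_coe_set_eq, hB.card_V hs ht hst]
    rfl
  rw [h2] at h1
  have h3 : q * q * m - m = (q + 1) * (q * m - m) := by
    obtain ⟨a, ha⟩ : ∃ a, q = a + 1 := ⟨q - 1, by omega⟩
    rw [ha]
    have e1 : (a + 1) * (a + 1) * m - m = (a + 1 + 1) * a * m := by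
      have : (a + 1) * (a + 1) * m = (a + 1 + 1) * a * m + m := by ring
      omega
    have e2 : (a + 1) * m - m = a * m := by
      have : (a + 1) * m = a * m + m := by ring
      omega
    rw [e1, e2, mul_assoc]
  rw [h3] at h1
  have h4 : 0 < q * m - m := by
    have : m < q * m := by nlinarith
    omega
  exact (Nat.eq_of_mul_eq_mul_right h4 h1).symm

theorem card_KP (hB : BinN p H V) {s t : H} (hs : s ∈ TT H V) (ht : t ∈ TT H V)
    (hst : s * t ≠ t * s) (hG : Good V s t) :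
    Nat.card (hB.KP hs ht hst hG) = Nat.card (Im V s) + 1 := by
  rw [← hB.card_TTK hs ht hst hG]
  refine Nat.card_congr
    { toFun := fun k => ⟨s * k.1, hB.mul_KP hs ht hst hG hs (left_mem_KK s t) k.2⟩
      invFun := fun r => ⟨s⁻¹ * r.1, ?_⟩
      left_inv := fun k => by simp
      right_inv := fun r => by simp }
  have hK := (KK V s t).mul_mem ((KK V s t).inv_mem (left_mem_KK s t)) r.2.2
  refine ⟨hK, fun hmem => ?_⟩
  obtain ⟨x, hxU, hxZ⟩ := hB.exists_not_mem_ZZ hs ht hst hmem hK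
  have h1 : (s⁻¹ * r.1) • x = x := mem_U.mp hxU
  rw [mul_smul, inv_smul_eq_iff] at h1
  have h2 := hB.TT_inj hG r.2.1 r.2.2 hs (left_mem_KK s t) hxZ h1
  apply hmem.1
  rw [h2, inv_mul_cancel]

/-- the averaging map -/
noncomputable def nu (hB : BinN p H V) {s t : H} (hs : s ∈ TT H V) (ht : t ∈ TT H V)
    (hst : s * t ≠ t * s) (hG : Good V s t) : V →+ V :=
  haveI := Fintype.ofFinite (hB.KP hs ht hst hG)
  ∑ k : hB.KP hs ht hst hG, DistribSMul.toAddMonoidHom V (k : H)

theorem nu_apply (hB : BinN p H V) {s t : H} (hs : s ∈ TT H V) (ht : t ∈ TT H V)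
    (hst : s * t ≠ t * s) (hG : Good V s t) [Fintype (hB.KP hs ht hst hG)] (v : V) :
    hB.nu hs ht hst hG v = ∑ k : hB.KP hs ht hst hG, (k : H) • v := by
  unfold nu
  rw [AddMonoidHom.finsetSum_apply]
  convert rfl using 1
  apply Finset.sum_congr
  · ext; simp
  · intro x _; rfl

theorem nu_mem (hB : BinN p H V) {s t : H} (hs : s ∈ TT H V) (ht : t ∈ TT H V)
    (hst : s * t ≠ t * s) (hG : Good V s t) (v : V) : hB.nu hs ht hst hG v ∈ ZZ V s t := by
  have := Fintype.ofFinite (hB.KP hs ht hst hG)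
  by_contra hno
  -- `KP` is nontrivial
  have hcard : 1 < Nat.card (hB.KP hs ht hst hG) := by
    rw [hB.card_KP hs ht hst hG]
    have := hB.one_lt_card_Im hs.1
    omega
  rw [Finite.one_lt_card_iff_nontrivial] at hcard
  obtain ⟨k, hk⟩ := exists_ne (1 : hB.KP hs ht hst hG)
  have h1 : (k : H) • hB.nu hs ht hst hG v = hB.nu hs ht hst hG v := by
    rw [nu_apply, Finset.smul_sum]
    simp_rw [← mul_smul]
    exact Fintype.sum_equiv (Equiv.mulLeft k) _ _ (fun x => rfl)
  have h2 := hB.KP_semireg hs ht hst hG k.2 hno h1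
  exact hk (Subtype.ext h2)

theorem card_Im_eq_pow (hB : BinN p H V) (g : H) : ∃ n : ℕ, Nat.card (Im V g) = p ^ n := by
  have : Fact p.Prime := ⟨hB.prime⟩
  have h1 : IsPGroup p (Multiplicative (Im V g)) := by
    intro x
    refine ⟨1, ?_⟩
    rw [pow_one]
    apply Multiplicative.toAdd.injective
    rw [toAdd_pow, toAdd_one]
    exact Subtype.ext (hB.exp _)
  obtain ⟨n, hn⟩ := (IsPGroup.iff_card).mp h1
  exact ⟨n, hn⟩

theorem card_Im_nsmul (hB : BinN p H V) {g : H} (hg : g ≠ 1) (v : V) : Nat.card (Im V g) • v = 0 := by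
  obtain ⟨n, hn⟩ := hB.card_Im_eq_pow g
  have h1 := hB.one_lt_card_Im hg
  rw [hn] at h1 ⊢
  cases n with
  | zero => simp at h1
  | succ n => rw [pow_succ, mul_nsmul, hB.exp]

theorem nu_ZZ (hB : BinN p H V) {s t : H} (hs : s ∈ TT H V) (ht : t ∈ TT H V)
    (hst : s * t ≠ t * s) (hG : Good V s t) {z : V} (hz : z ∈ ZZ V s t) :
    hB.nu hs ht hst hG z = z := by
  have := Fintype.ofFinite (hB.KP hs ht hst hG)
  rw [nu_apply]
  have h1 : ∀ k : hB.KP hs ht hst hG, (k : H) • z = z := fun k => k.2.1 z hz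
  rw [Finset.sum_congr rfl (fun k _ => h1 k), Finset.sum_const, Finset.card_univ,
    ← Nat.card_eq_fintype_card, hB.card_KP hs ht hst hG, add_nsmul, hB.card_Im_nsmul hs.1,
    zero_add, one_nsmul]

theorem nu_smul (hB : BinN p H V) {s t : H} (hs : s ∈ TT H V) (ht : t ∈ TT H V)
    (hst : s * t ≠ t * s) (hG : Good V s t) {k : H} (hk : k ∈ KK V s t) (v : V) :
    hB.nu hs ht hst hG (k • v) = hB.nu hs ht hst hG v := by
  have := Fintype.ofFinite (hB.KP hs ht hst hG)
  -- `k` fixes `ν v` and normalizes `KP`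
  have h0 : k • hB.nu hs ht hst hG v = hB.nu hs ht hst hG v := hk _ (hB.nu_mem hs ht hst hG v)
  rw [← h0, nu_apply, nu_apply, Finset.smul_sum]
  have hconj : ∀ x : hB.KP hs ht hst hG, k⁻¹ * (x : H) * k ∈ hB.KP hs ht hst hG := by
    intro x
    refine ⟨(KK V s t).mul_mem ((KK V s t).mul_mem ((KK V s t).inv_mem hk) x.2.1) hk, fun h => ?_⟩
    apply x.2.2
    have := TT_conj h k
    convert this using 1
    group
  have hconj' : ∀ x : hB.KP hs ht hst hG, k * (x : H) * k⁻¹ ∈ hB.KP hs ht hst hG := by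
    intro x
    refine ⟨(KK V s t).mul_mem ((KK V s t).mul_mem hk x.2.1) ((KK V s t).inv_mem hk), fun h => ?_⟩
    apply x.2.2
    have := TT_conj h k⁻¹
    convert this using 1
    group
  let e : hB.KP hs ht hst hG ≃ hB.KP hs ht hst hG :=
    { toFun := fun x => ⟨k⁻¹ * (x : H) * k, hconj x⟩
      invFun := fun x => ⟨k * (x : H) * k⁻¹, hconj' x⟩
      left_inv := fun x => Subtype.ext (by simp only; group)
      right_inv := fun x => Subtype.ext (by simp only; group) }
  refine Fintype.sum_equiv e _ _ (fun x => ?_)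
  change (x : H) • k • v = k • (k⁻¹ * (x : H) * k) • v
  rw [← mul_smul, ← mul_smul]
  congr 1
  group

theorem nu_sub (hB : BinN p H V) {s t : H} (hs : s ∈ TT H V) (ht : t ∈ TT H V)
    (hst : s * t ≠ t * s) (hG : Good V s t) {g : H} (hg : g ∈ KK V s t) (v : V) :
    hB.nu hs ht hst hG (g • v - v) = 0 := by
  rw [map_sub, hB.nu_smul hs ht hst hG hg, sub_self]

theorem nu_YY (hB : BinN p H V) {s t : H} (hs : s ∈ TT H V) (ht : t ∈ TT H V)
    (hst : s * t ≠ t * s) (hG : Good V s t) {y : V} (hy : y ∈ YY V s t) :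
    hB.nu hs ht hst hG y = 0 := by
  obtain ⟨a, ha, b, hb, rfl⟩ := mem_YY.mp hy
  obtain ⟨x, hx⟩ := mem_Im.mp ha
  obtain ⟨x', hx'⟩ := mem_Im.mp hb
  have e1 : a = s • x - x := by rw [hx]; abel
  have e2 : b = t • x' - x' := by rw [hx']; abel
  rw [map_add, e1, e2, hB.nu_sub hs ht hst hG (left_mem_KK s t),
    hB.nu_sub hs ht hst hG (right_mem_KK s t), add_zero]

/-- the image of `k - 1` lies in `Y` for `k ∈ K`. -/
theorem sub_mem_YY (hB : BinN p H V) {s t : H} (hs : s ∈ TT H V) (ht : t ∈ TT H V)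
    (hst : s * t ≠ t * s) (hG : Good V s t) {k : H} (hk : k ∈ KK V s t) (v : V) :
    k • v - v ∈ YY V s t := by
  obtain ⟨y, hy, z, hz, hyz⟩ := hB.exists_decomp hs ht hst (k • v - v)
  have h3 := hB.nu_sub hs ht hst hG hk v
  rw [hyz, map_add, hB.nu_YY hs ht hst hG hy, hB.nu_ZZ hs ht hst hG hz, zero_add] at h3
  rw [hyz, h3, add_zero]
  exact hy

/-- for `y ∈ Y` nonzero and `z ∈ Z` nonzero, `y` and `y + z` are not conjugate. -/
theorem not_cj_add (hB : BinN p H V) {s t : H} (hs : s ∈ TT H V) (ht : t ∈ TT H V)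
    (hst : s * t ≠ t * s) (hG : Good V s t) {y z : V} (hy : y ∈ YY V s t) (hz : z ∈ ZZ V s t)
    (hz0 : z ≠ 0) : ¬ Cj H y (y + z) := by
  intro hcj
  have := Fintype.ofFinite (hB.KP hs ht hst hG)
  obtain ⟨τ, _, hτ⟩ := hB.exists_inv z
  have h1 : ∀ k : hB.KP hs ht hst hG, τ • ((k : H) • y) = (k : H) • y + z := by
    intro k
    rw [← hτ]
    have h2 := hcj.smul_smul (k : H)
    rwa [smul_add, k.2.1 z hz] at h2
  have h2 : τ • hB.nu hs ht hst hG y = hB.nu hs ht hst hG y + z := by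
    rw [nu_apply, Finset.smul_sum, Finset.sum_congr rfl (fun k _ => h1 k),
      Finset.sum_add_distrib, Finset.sum_const, Finset.card_univ, ← Nat.card_eq_fintype_card,
      hB.card_KP hs ht hst hG, add_nsmul, hB.card_Im_nsmul hs.1, zero_add, one_nsmul]
  rw [hB.nu_YY hs ht hst hG hy, smul_zero, zero_add] at h2
  exact hz0 h2.symm

theorem Im_le_YY (hB : BinN p H V) {s t : H} (hs : s ∈ TT H V) (ht : t ∈ TT H V)
    (hst : s * t ≠ t * s) (hG : Good V s t) {r : H} (hr : r ∈ KK V s t) : Im V r ≤ YY V s t := by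
  intro w hw
  obtain ⟨x, hx⟩ := mem_Im.mp hw
  have e1 : w = r • x - x := by rw [hx]; abel
  rw [e1]
  exact hB.sub_mem_YY hs ht hst hG hr x

theorem smul_mem_YY (hB : BinN p H V) {s t : H} (hs : s ∈ TT H V) (ht : t ∈ TT H V)
    (hst : s * t ≠ t * s) (hG : Good V s t) {k : H} (hk : k ∈ KK V s t) {y : V}
    (hy : y ∈ YY V s t) : k • y ∈ YY V s t := by
  have h1 := hB.sub_mem_YY hs ht hst hG hk y
  have : k • y = (k • y - y) + y := by abel
  rw [this]
  exact (YY V s t).add_mem h1 hy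

/-- every nonzero vector of `Y` is in the image of a unique element of `TT ∩ K`. -/
theorem exists_mem_Im (hB : BinN p H V) {s t : H} (hs : s ∈ TT H V) (ht : t ∈ TT H V)
    (hst : s * t ≠ t * s) (hG : Good V s t) {y : V} (hy : y ∈ YY V s t) (hy0 : y ≠ 0) :
    ∃ r ∈ TT H V, r ∈ KK V s t ∧ y ∈ Im V r := by
  by_contra hno
  push Not at hno
  have hq1 : 1 < Nat.card (Im V s) := hB.one_lt_card_Im hs.1
  -- count
  have h1 := card_of_unique
    (X := {x : V // x ≠ 0 ∧ ∃ r ∈ TT H V, r ∈ KK V s t ∧ x ∈ Im V r})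
    (R := {r : H // r ∈ TT H V ∧ r ∈ KK V s t}) (fun r x => x.1 ∈ Im V r.1) (by
      rintro ⟨x, hx0, r, hr, hrK, hrx⟩
      exact ⟨⟨r, hr, hrK⟩, hrx, fun r' hr' =>
        Subtype.ext (hB.TT_unique r'.2.1 hr hx0 hr' hrx)⟩) (Nat.card (Im V s) - 1) (by
      rintro ⟨r, hr, hrK⟩
      have e : {x : {x : V // x ≠ 0 ∧ ∃ r ∈ TT H V, r ∈ KK V s t ∧ x ∈ Im V r} // x.1 ∈ Im V r} ≃
          {x : V // x ∈ (Im V r : Set V) \ {0}} :=
        { toFun := fun x => ⟨x.1.1, x.2, x.1.2.1⟩
          invFun := fun x => ⟨⟨x.1, x.2.2, r, hr, hrK, x.2.1⟩, x.2.1⟩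
          left_inv := fun x => rfl
          right_inv := fun x => rfl }
      rw [Nat.card_congr e]
      change Nat.card ↥((Im V r : Set V) \ {0}) = _
      rw [Nat.card_coe_set_eq, Set.ncard_sdiff (by simp) (Set.toFinite _),
        ← Nat.card_coe_set_eq, Set.ncard_singleton]
      change Nat.card (Im V r) - 1 = _
      rw [hB.card_Im_K hs ht hst hr hrK])
  rw [hB.card_TTK hs ht hst hG] at h1
  have h2 : Nat.card {x : V // x ≠ 0 ∧ ∃ r ∈ TT H V, r ∈ KK V s t ∧ x ∈ Im V r} <
      Nat.card (Im V s) * Nat.card (Im V s) - 1 := by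
    have e : {x : V // x ≠ 0 ∧ ∃ r ∈ TT H V, r ∈ KK V s t ∧ x ∈ Im V r} ≃
        ({x : V | x ≠ 0 ∧ ∃ r ∈ TT H V, r ∈ KK V s t ∧ x ∈ Im V r} : Set V) := Equiv.refl _
    rw [Nat.card_congr e, Nat.card_coe_set_eq]
    have h3 : Set.ncard ((YY V s t : Set V) \ {0}) = Nat.card (Im V s) * Nat.card (Im V s) - 1 := by
      rw [Set.ncard_sdiff (by simp) (Set.toFinite _),
        ← Nat.card_coe_set_eq, Set.ncard_singleton]
      change Nat.card (YY V s t) - 1 = _
      rw [hB.card_YY hs ht hst]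
    rw [← h3]
    apply Set.ncard_lt_ncard _ (Set.toFinite _)
    refine ⟨?_, fun hle => ?_⟩
    · rintro x ⟨hx0, r, hr, hrK, hrx⟩
      exact ⟨hB.Im_le_YY hs ht hst hG hrK hrx, hx0⟩
    · obtain ⟨_, r, hr, hrK, hrx⟩ := hle ⟨hy, hy0⟩
      exact hno r hr hrK hrx
  rw [h1] at h2
  obtain ⟨a, ha⟩ : ∃ a, Nat.card (Im V s) = a + 1 := ⟨Nat.card (Im V s) - 1, by omega⟩
  rw [ha] at h2
  have e1 : (a + 1 + 1) * (a + 1 - 1) = (a + 1) * (a + 1) - 1 := by
    have : (a + 1) * (a + 1) = (a + 1 + 1) * a + 1 := by ring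
    rw [this]; simp
  omega

end BinN

end Cfsg.Agent.H900.BinLin
end
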